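import Groth.Agent.PerfA.GenPull
import Groth.Agent.PerfA.Restrict
import Groth.Agent.Dcoh.DerPull
import Mathlib.AlgebraicGeometry.Fiber

/-!
# Direct images along the inclusion of a fibre

`f : X ⟶ Y`, `ι : X_s ⟶ X` the inclusion of the fibre at `s : Y`.
* `isZero_of_isZero_Rpush_fiberι`: `Rι_*` is conservative on `D_QCoh(O_{X_s})`;
* `generator_fiberι`: the pullback of a generator is a generator.
-/

set_option autoImplicit false

universe u

open CategoryTheory Limits AlgebraicGeometry Pretriangulated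
attribute [local instance] HasDerivedCategory.standard

namespace Groth.Agent.Dual.H323.FibreGen

lemma isPullback_of_comp_mono {C : Type*} [Category* C] {P X Y W Z : C} {a : P ⟶ X} {b : P ⟶ Y}
    {h : X ⟶ W} {k : Y ⟶ W} {i : W ⟶ Z} [Mono i] (H : IsPullback a b (h ≫ i) (k ≫ i)) :
    IsPullback a b h k := by
  have w : a ≫ h = b ≫ k := by
    rw [← cancel_mono i, Category.assoc, Category.assoc]
    exact H.w
  refine ⟨⟨w⟩, ⟨PullbackCone.IsLimit.mk w
    (fun s => H.lift s.fst s.snd (by rw [reassoc_of% s.condition])) (fun s => H.lift_fst _ _ _)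
    (fun s => H.lift_snd _ _ _) (fun s m h1 h2 => ?_)⟩⟩
  apply H.hom_ext
  · rw [h1, H.lift_fst]
  · rw [h2, H.lift_snd]

variable {X Y : Scheme.{u}}

/-- Over an affine open of the base, the inclusion of a fibre is affine. -/
theorem isAffineHom_fiberι (f : X ⟶ Y) (s : Y) (V : Y.Opens) (hV : IsAffineOpen V) (hs : s ∈ V) :
    IsAffineHom (f.fiberι s ∣_ (f ⁻¹ᵁ V)) := by
  have h0 : Set.range (Y.fromSpecResidueField s) ⊆ Set.range V.ι := by
    rw [Scheme.range_fromSpecResidueField, Scheme.Opens.range_ι]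
    simpa using hs
  let h' : Spec (Y.residueField s) ⟶ V := IsOpenImmersion.lift V.ι (Y.fromSpecResidueField s) h0
  have hh : h' ≫ V.ι = Y.fromSpecResidueField s := IsOpenImmersion.lift_fac _ _ _
  have : IsAffine (V : Scheme.{u}) := hV
  have h1 : IsPullback (f.fiberι s) (f.fiberToSpecResidueField s) f (Y.fromSpecResidueField s) :=
    IsPullback.of_hasPullback _ _
  have h2 := (isPullback_morphismRestrict (f.fiberι s) (f ⁻¹ᵁ V)).flip
  have h3 : IsPullback ((f.fiberι s ⁻¹ᵁ (f ⁻¹ᵁ V)).ι ≫ f.fiberToSpecResidueField s)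
      (f.fiberι s ∣_ (f ⁻¹ᵁ V)) (Y.fromSpecResidueField s) ((f ⁻¹ᵁ V).ι ≫ f) :=
    h2.paste_horiz h1.flip
  rw [← hh, ← morphismRestrict_ι] at h3
  have h4 := isPullback_of_comp_mono h3
  exact MorphismProperty.of_isPullback (P := @IsAffineHom) h4 inferInstance

/-- `Rι_*` is conservative on `D_QCoh(O_{X_s})`. -/
theorem isZero_of_isZero_Rpush_fiberι (f : X ⟶ Y) (s : Y) [DCoh.HasRpush (f.fiberι s)]
    (E : DCoh.D (f.fiber s)) (hE : DCoh.IsQCohD E) (h : IsZero ((DCoh.Rpush (f.fiberι s)).obj E)) :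
    IsZero E := by
  obtain ⟨V, hV, hs, -⟩ := exists_isAffineOpen_mem_and_subset (X := Y) (x := s) (U := ⊤) trivial
  have haff := isAffineHom_fiberι f s V hV hs
  have hR : DCoh.HasRpush (f.fiberι s ∣_ (f ⁻¹ᵁ V)) := Dcoh.DerSch.hasRpush _
  obtain ⟨e⟩ := Dcoh.DerSch.exists_rpushRestrictIso (f.fiberι s) (f.fiberι s ∣_ (f ⁻¹ᵁ V))
    (f.fiberι s ⁻¹ᵁ (f ⁻¹ᵁ V)).ι (f ⁻¹ᵁ V).ι
    (isPullback_morphismRestrict (f.fiberι s) (f ⁻¹ᵁ V)).flip
  have h1 : IsZero ((DCoh.Rpush (f.fiberι s ∣_ (f ⁻¹ᵁ V))).obj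
      ((DCoh.restrictD (f.fiberι s ⁻¹ᵁ (f ⁻¹ᵁ V)).ι).obj E)) :=
    (Functor.map_isZero (DCoh.restrictD (f ⁻¹ᵁ V).ι) h).of_iso (e.app E).symm
  have h2 := PerfA.GenPull.isZero_of_isZero_Rpush (f.fiberι s ∣_ (f ⁻¹ᵁ V)) _
    (PerfA.QCohD.isQCohD_restrictD _ hE) h1
  refine PerfA.Restrict.isZero_of_restrictD_opens E fun x => ⟨_, ?_, h2⟩
  have h3 : f (f.fiberι s x) = s := by
    have : f.fiberι s x ∈ Set.range (f.fiberι s) := ⟨x, rfl⟩
    rw [Scheme.Hom.range_fiberι] at this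
    exact this
  change f (f.fiberι s x) ∈ V
  rw [h3]
  exact hs

/-- If `Rp_*` is conservative on `D_QCoh`, its left adjoint maps a generator to a generator. -/
theorem generator_of_conservative (p : X ⟶ Y) [QuasiCompact p] [QuasiSeparated p]
    (L : DCoh.D Y ⥤ DCoh.D X) [DCoh.HasRpush p] (adj : L ⊣ DCoh.Rpush p) (G : DCoh.D Y)
    (hcons : ∀ E : DCoh.D X, DCoh.IsQCohD E → IsZero ((DCoh.Rpush p).obj E) → IsZero E)
    (hgen : ∀ E : DCoh.D Y, DCoh.IsQCohD E → (∀ (n : ℤ) (φ : G⟦n⟧ ⟶ E), φ = 0) → IsZero E)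
    (E : DCoh.D X) (hE : DCoh.IsQCohD E)
    (h : ∀ (n : ℤ) (φ : (L.obj G)⟦n⟧ ⟶ E), φ = 0) : IsZero E := by
  refine hcons E hE (hgen _ (S0998.result p E hE) fun n ψ => ?_)
  let _ := Dcoh.DerSch.rpushCommShift p
  have h1 : ∀ (φ : L.obj G ⟶ E⟦-n⟧), φ = 0 := by
    intro φ
    have h2 := h n (φ⟦n⟧' ≫ (shiftNegShift E n).hom)
    have h3 : φ⟦n⟧' = 0 := by
      rw [← cancel_mono (shiftNegShift E n).hom, h2, zero_comp]
    exact (shiftFunctor (DCoh.D X) n).map_injective (h3.trans (Functor.map_zero _ _ _).symm)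
  have h4 : ∀ (φ : G ⟶ (DCoh.Rpush p).obj (E⟦-n⟧)), φ = 0 := by
    intro φ
    apply (adj.homEquiv _ _).symm.injective
    rw [h1 ((adj.homEquiv _ _).symm φ), h1 ((adj.homEquiv _ _).symm 0)]
  have h5 : (shiftShiftNeg G n).inv ≫ ψ⟦-n⟧' = 0 := by
    have h6 := h4 (((shiftShiftNeg G n).inv ≫ ψ⟦-n⟧') ≫ ((DCoh.Rpush p).commShiftIso (-n)).inv.app E)
    rw [← cancel_mono (((DCoh.Rpush p).commShiftIso (-n)).inv.app E), zero_comp]
    exact h6
  have h7 : ψ⟦-n⟧' = 0 := by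
    rw [← cancel_epi (shiftShiftNeg G n).inv, h5, comp_zero]
  exact (shiftFunctor (DCoh.D Y) (-n)).map_injective (h7.trans (Functor.map_zero _ _ _).symm)

/-- The derived pullback of a generator to a fibre is a generator. -/
theorem generator_fiberι (f : X ⟶ Y) [QuasiCompact f] [QuasiSeparated f] [QuasiSeparatedSpace Y]
    (s : Y) [DCoh.HasLpull (f.fiberι s)] (G : DCoh.D X)
    (hgen : ∀ E : DCoh.D X, DCoh.IsQCohD E → (∀ (n : ℤ) (φ : G⟦n⟧ ⟶ E), φ = 0) → IsZero E)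
    (E : DCoh.D (f.fiber s)) (hE : DCoh.IsQCohD E)
    (h : ∀ (n : ℤ) (φ : ((DCoh.Lpull (f.fiberι s)).obj G)⟦n⟧ ⟶ E), φ = 0) : IsZero E := by
  have hR := Dcoh.DerSch.hasRpush (f.fiberι s)
  have h1 : QuasiCompact (f.fiberι s) :=
    MorphismProperty.pullback_fst _ _ (inferInstance : QuasiCompact (Y.fromSpecResidueField s))
  have h2 : QuasiSeparated (f.fiberι s) :=
    MorphismProperty.pullback_fst _ _ (inferInstance : QuasiSeparated (Y.fromSpecResidueField s))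
  exact generator_of_conservative (f.fiberι s) _ (Dcoh.DerPull.lpullAdj (f.fiberι s)) G
    (fun E hE => isZero_of_isZero_Rpush_fiberι f s E hE) hgen E hE h

end Groth.Agent.Dual.H323.FibreGen
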