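import Groth.Agent.Dual.H323.PerfPush
import Groth.Agent.PerfA.Restrict
import Groth.Agent.PerfC.RpushTrunc
import Groth.Agent.Dcoh.DualMap

/-!
# Maps from a dualizable object and direct images

`hom_zero`: `(A', A)` an exact pairing in `D(O_P)`, `f : P ⟶ T`; if `Rf_*(A' ⊗ K) ∈ D^{≥ a}`, all maps
`A[-i] ⟶ K`, `i < a`, are zero.
-/

set_option autoImplicit false

universe u

open CategoryTheory Limits MonoidalCategory AlgebraicGeometry
attribute [local instance] HasDerivedCategory.standard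

open scoped Groth.Agent.Dcoh.MonCat Groth.Agent.Dcoh.ModD

namespace Groth.Agent.Dual.H323.FibreHom

open Groth.Agent.Dcoh Groth.Agent.Dcoh.ModD Groth.Agent.PerfC.DTens

variable {P T : Scheme.{u}}

/-- `A' ⊗ K[i] ≅ (A' ⊗ K)[i]`. -/
theorem nonempty_tensor_shift (A K : DCoh.D P) (i : ℤ) : Nonempty (A ⊗ K⟦i⟧ ≅ (A ⊗ K)⟦i⟧) := by
  obtain ⟨_, _⟩ := isTriang_LTX_obj A
  obtain ⟨e⟩ := PerfDual.nonempty_objIso A
  exact ⟨e.symm.app _ ≪≫ (((LTX P).obj A).commShiftIso i).app K ≪≫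
    (shiftFunctor (DCoh.D P) i).mapIso (e.app K)⟩

variable (T) in
/-- The unit of `D(O_T)` is in degrees `≤ 0`. -/
lemma isLE_unit : (𝟙_ (DCoh.D T)).IsLE 0 :=
  (DerivedCategory.TStructure.t (C := T.Modules)).isLE_of_iso (DualX.unitIso T) 0

/-- The vanishing of maps. -/
theorem hom_zero (f : P ⟶ T) [DCoh.HasRpush f] (K A A' : DCoh.D P) [ExactPairing A' A] (a : ℤ)
    [((DCoh.Rpush f).obj (A' ⊗ K)).IsGE a] (i : ℤ) (hi : i < a) (φ : A⟦-i⟧ ⟶ K) : φ = 0 := by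
  have hL := DerPull.hasLpull f
  let _ := MonPull.monPull f
  let _ := MonLpull182.lpullMonoidal f
  let adj := DerPull.lpullAdj f
  let _ := DerSch.rpushCommShift f
  obtain ⟨e⟩ := nonempty_tensor_shift A' K i
  have h0 : Subsingleton (𝟙_ (DCoh.D T) ⟶ ((DCoh.Rpush f).obj (A' ⊗ K))⟦i⟧) := by
    have h1 := isLE_unit T
    have h2 : (((DCoh.Rpush f).obj (A' ⊗ K))⟦i⟧).IsGE (a - i) :=
      DerivedCategory.TStructure.t.isGE_shift _ a i (a - i) (by omega)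
    exact ⟨fun x y => (DerivedCategory.TStructure.t.zero x 0 (a - i) (by omega)).trans
      (DerivedCategory.TStructure.t.zero y 0 (a - i) (by omega)).symm⟩
  let e' : (DCoh.Rpush f).obj (A' ⊗ K⟦i⟧) ≅ ((DCoh.Rpush f).obj (A' ⊗ K))⟦i⟧ :=
    (DCoh.Rpush f).mapIso e ≪≫ ((DCoh.Rpush f).commShiftIso i).app _
  have h1 : Subsingleton (𝟙_ (DCoh.D T) ⟶ (DCoh.Rpush f).obj (A' ⊗ K⟦i⟧)) :=
    (Iso.homToEquiv (Z := 𝟙_ (DCoh.D T)) e').subsingleton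
  have h2 : Subsingleton ((DCoh.Lpull f).obj (𝟙_ (DCoh.D T)) ⟶ A' ⊗ K⟦i⟧) :=
    (adj.homEquiv _ _).subsingleton
  have h3 : Subsingleton (𝟙_ (DCoh.D P) ⟶ A' ⊗ K⟦i⟧) :=
    (Iso.homFromEquiv (Z := A' ⊗ K⟦i⟧) (Functor.Monoidal.εIso (DCoh.Lpull f))).subsingleton
  have h4 : Subsingleton (A ⊗ 𝟙_ (DCoh.D P) ⟶ K⟦i⟧) :=
    (tensorLeftHomEquiv _ A' A _).subsingleton
  have h5 : Subsingleton (A ⟶ K⟦i⟧) :=
    (Iso.homFromEquiv (Z := K⟦i⟧) (ρ_ A).symm).subsingleton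
  have h6 : (shiftNegShift A i).inv ≫ φ⟦i⟧' = 0 := Subsingleton.elim _ _
  have h7 : φ⟦i⟧' = 0 := by
    rw [← cancel_epi (shiftNegShift A i).inv, h6, comp_zero]
  exact (shiftFunctor (DCoh.D P) i).map_injective (h7.trans (Functor.map_zero _ _ _).symm)

end Groth.Agent.Dual.H323.FibreHom
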