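import Groth.Agent.Dcoh.DualMap
import Mathlib.CategoryTheory.Adjunction.Unique

/-!
# Duality for a monoidal functor `L ⊣ R`: formal part

`L : D ⥤ C` is a monoidal functor between monoidal categories with right adjoint `R`.
* `theta adj M T : R M ⊗ T ⟶ R (M ⊗ L T)`, the projection map; it is an isomorphism for `T` dualizable
  (`isIso_theta`).
* `mu adj M N : R M ⊗ R N ⟶ R (M ⊗ N)`.
* If `τ : R ω ⟶ 𝟙` is universal (for a class `Q` of objects), `(P, P')` is an exact pairing in `C`, and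
  `R P'`, `R (P ⊗ ω)` are dualizable, then the pairing `R P' ⊗ R (P ⊗ ω) ⟶ 𝟙` is perfect, and
  `- ⊗ ω : Hom(P, 𝟙) → Hom(P ⊗ ω, 𝟙 ⊗ ω)` is bijective.
-/

set_option autoImplicit false

open CategoryTheory MonoidalCategory Functor.LaxMonoidal Functor.OplaxMonoidal Functor.Monoidal

namespace Groth.Agent.Dual.H323.Pairing

universe v v' u u'

/-- The left dual of a right dual, in a weakly symmetric monoidal category. -/
theorem nonempty_swap {C : Type u} [Category.{v} C] [MonoidalCategory C]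
    (h : ∀ Z : C, Nonempty (tensorLeft Z ≅ tensorRight Z)) (A B E : C) [ExactPairing A B]
    [ExactPairing B E] : Nonempty (ExactPairing B A) := by
  obtain ⟨eB⟩ := h B
  obtain ⟨eA⟩ := h A
  have adj : tensorRight B ⊣ tensorRight A :=
    ((tensorLeftAdjunction A B).ofNatIsoLeft eB).ofNatIsoRight eA
  let i : tensorRight A ≅ tensorRight E := adj.rightAdjointUniq (tensorRightAdjunction B E)
  let e : A ≅ E := (λ_ A).symm ≪≫ i.app (𝟙_ C) ≪≫ λ_ E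
  exact ⟨exactPairingCongrRight e⟩

lemma tensorRightHomEquiv_symm_unit {C : Type u} [Category.{v} C] [MonoidalCategory C]
    (X Y Y' : C) [ExactPairing Y Y'] (v : X ⟶ Y') :
    (tensorRightHomEquiv X Y Y' (𝟙_ C)).symm (v ≫ (λ_ Y').inv) = v ▷ Y ≫ ε_ Y Y' := by
  simp only [tensorRightHomEquiv, Equiv.coe_fn_symm_mk]
  rw [comp_whiskerRight, Category.assoc]
  congr 1
  rw [leftUnitor_inv_whiskerRight_assoc, Iso.inv_hom_id_assoc, ← unitors_equal, leftUnitor_naturality,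
    Iso.inv_hom_id_assoc]

variable {C : Type u} [Category.{v} C] [MonoidalCategory C] {D : Type u'} [Category.{v'} D]
  [MonoidalCategory D] {L : D ⥤ C} [L.Monoidal] {R : C ⥤ D} (adj : L ⊣ R)

/-- The counit, with unfolded source and target. -/
abbrev ct (M : C) : L.obj (R.obj M) ⟶ M := adj.counit.app M

/-- The transpose `L T ⟶ N` of `T ⟶ R N`. -/
abbrev hat {T : D} {N : C} (u : T ⟶ R.obj N) : L.obj T ⟶ N := (adj.homEquiv T N).symm u

omit [MonoidalCategory C] [MonoidalCategory D] [L.Monoidal] in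
lemma map_ct {T : D} {N : C} (u : T ⟶ R.obj N) : L.map u ≫ ct adj N = hat adj u :=
  (adj.homEquiv_counit T N u).symm

omit [MonoidalCategory C] [MonoidalCategory D] [L.Monoidal] in
lemma homEquiv_comp {T : D} {N N' : C} (g : L.obj T ⟶ N) (h : N ⟶ N') :
    adj.homEquiv T N' (g ≫ h) = adj.homEquiv T N g ≫ R.map h :=
  Adjunction.homEquiv_naturality_right adj g h

omit [MonoidalCategory C] [MonoidalCategory D] [L.Monoidal] in
lemma comp_homEquiv {T T' : D} {N : C} (u : T' ⟶ T) (g : L.obj T ⟶ N) :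
    u ≫ adj.homEquiv T N g = adj.homEquiv T' N (L.map u ≫ g) :=
  (Adjunction.homEquiv_naturality_left adj u g).symm

/-- The projection map `R M ⊗ T ⟶ R (M ⊗ L T)`. -/
def theta (M : C) (T : D) : R.obj M ⊗ T ⟶ R.obj (M ⊗ L.obj T) :=
  adj.homEquiv _ _ (δ L (R.obj M) T ≫ ct adj M ▷ L.obj T)

/-- The lax structure `R M ⊗ R N ⟶ R (M ⊗ N)`. -/
def mu (M N : C) : R.obj M ⊗ R.obj N ⟶ R.obj (M ⊗ N) :=
  adj.homEquiv _ _ (δ L (R.obj M) (R.obj N) ≫ ct adj M ▷ L.obj (R.obj N) ≫ M ◁ ct adj N)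

/-- `(RM ◁ u) ≫ μ = θ ≫ R (M ◁ û)`. -/
lemma whiskerLeft_mu (M N : C) {T : D} (u : T ⟶ R.obj N) :
    R.obj M ◁ u ≫ mu adj M N = theta adj M T ≫ R.map (M ◁ hat adj u) := by
  rw [mu, theta, comp_homEquiv, ← homEquiv_comp]
  congr 1
  rw [← δ_natural_right_assoc, Category.assoc, ← map_ct, MonoidalCategory.whiskerLeft_comp,
    whisker_exchange_assoc]

/-- The projection map is an isomorphism for `T` dualizable. -/
theorem isIso_theta (M : C) (T : D) (T' : D) [ExactPairing T' T] : IsIso (theta adj M T) := by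
  let : ExactPairing (L.obj T') (L.obj T) := Dcoh.DualMap.mapPairing L T' T
  have key : ∀ (Z : D) (z : Z ⟶ R.obj M ⊗ T), z ≫ theta adj M T =
      adj.homEquiv _ _ (tensorRightHomEquiv (L.obj Z) (L.obj T') (L.obj T) M
        (μ L Z T' ≫ (adj.homEquiv _ _).symm ((tensorRightHomEquiv Z T' T (R.obj M)).symm z))) := by
    intro Z z
    rw [theta, comp_homEquiv]
    congr 1
    rw [← Equiv.symm_apply_eq]
    change _ = μ L Z T' ≫ hat adj _
    rw [← map_ct]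
    dsimp only [tensorRightHomEquiv, Equiv.coe_fn_symm_mk]
    have hev : (ε_ (L.obj T') (L.obj T) : L.obj T ⊗ L.obj T' ⟶ 𝟙_ C) =
        μ L T T' ≫ L.map (ε_ T' T) ≫ η L := rfl
    rw [hev]
    simp only [Functor.map_comp, Category.assoc, comp_whiskerRight, MonoidalCategory.whiskerLeft_comp,
      map_whiskerRight, map_whiskerLeft, map_associator, map_rightUnitor, μ_δ_assoc]
    rw [associator_naturality_left_assoc, ← whisker_exchange_assoc, ← whisker_exchange_assoc,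
      ← whisker_exchange_assoc, rightUnitor_naturality]
  have hb : ∀ Z : D, Function.Bijective (fun z : Z ⟶ R.obj M ⊗ T => z ≫ theta adj M T) := by
    intro Z
    have h1 : (fun z : Z ⟶ R.obj M ⊗ T => z ≫ theta adj M T) =
        (adj.homEquiv _ _) ∘ (tensorRightHomEquiv (L.obj Z) (L.obj T') (L.obj T) M) ∘
          (fun g : L.obj (Z ⊗ T') ⟶ M => μ L Z T' ≫ g) ∘ (adj.homEquiv _ _).symm ∘
            (tensorRightHomEquiv Z T' T (R.obj M)).symm := by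
      funext z
      exact key Z z
    rw [h1]
    exact (Equiv.bijective _).comp ((Equiv.bijective _).comp
      (((μIso L Z T').symm.homFromEquiv (Z := M)).bijective.comp ((Equiv.bijective _).comp
        (Equiv.bijective _))))
  obtain ⟨s, hs⟩ := (hb _).2 (𝟙 (R.obj (M ⊗ L.obj T)))
  refine ⟨s, (hb _).1 ?_, hs⟩
  dsimp only at hs ⊢
  rw [Category.assoc, hs, Category.comp_id, Category.id_comp]

section Pairing

variable (P P' ω : C) [ExactPairing P P'] (τ : R.obj ω ⟶ 𝟙_ D)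

/-- The contraction `P' ⊗ (P ⊗ ω) ⟶ ω`. -/
def contr : P' ⊗ (P ⊗ ω) ⟶ ω := (α_ P' P ω).inv ≫ ε_ P P' ▷ ω ≫ (λ_ ω).hom

/-- The pairing `R P' ⊗ R (P ⊗ ω) ⟶ 𝟙`. -/
def beta : R.obj P' ⊗ R.obj (P ⊗ ω) ⟶ 𝟙_ D :=
  mu adj P' (P ⊗ ω) ≫ R.map (contr P P' ω) ≫ τ

lemma whiskerLeft_beta {T : D} (u : T ⟶ R.obj (P ⊗ ω)) :
    R.obj P' ◁ u ≫ beta adj P P' ω τ =
      theta adj P' T ≫ R.map ((tensorLeftHomEquiv (L.obj T) P P' ω).symm (hat adj u)) ≫ τ := by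
  rw [beta, ← Category.assoc, whiskerLeft_mu, Category.assoc, ← R.map_comp_assoc]
  congr 3

variable {P P' ω τ} {Q : C → Prop} (hτ : ∀ N : C, Q N → Function.Bijective (fun g : N ⟶ ω => R.map g ≫ τ))

include hτ in
/-- First half of the perfectness of the pairing. -/
theorem bijective_left (T : D) (hT : IsIso (theta adj P' T)) (hQ : Q (P' ⊗ L.obj T)) :
    Function.Bijective (fun u : T ⟶ R.obj (P ⊗ ω) => R.obj P' ◁ u ≫ beta adj P P' ω τ) := by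
  have h1 : (fun u : T ⟶ R.obj (P ⊗ ω) => R.obj P' ◁ u ≫ beta adj P P' ω τ) =
      (fun g => theta adj P' T ≫ g) ∘ (fun g : P' ⊗ L.obj T ⟶ ω => R.map g ≫ τ) ∘
        (tensorLeftHomEquiv (L.obj T) P P' ω).symm ∘ (adj.homEquiv T (P ⊗ ω)).symm := by
    funext u
    exact whiskerLeft_beta adj P P' ω τ u
  rw [h1]
  exact (((asIso (theta adj P' T)).symm.homFromEquiv (Z := 𝟙_ D)).bijective).comp
    ((hτ _ hQ).comp ((Equiv.bijective _).comp (Equiv.bijective _)))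

include hτ in
/-- The pairing is perfect. -/
theorem exists_iso_dual (S S' : D) [ExactPairing S (R.obj P')] [ExactPairing S' S]
    (B' : D) [ExactPairing B' (R.obj (P ⊗ ω))] (hQS : Q (P' ⊗ L.obj S))
    (hQB : Q (P' ⊗ L.obj (R.obj (P ⊗ ω)))) :
    ∃ w : R.obj (P ⊗ ω) ≅ S, R.obj P' ◁ w.hom ≫ ε_ S (R.obj P') = beta adj P P' ω τ := by
  set β := beta adj P P' ω τ with hβ
  have hS := bijective_left adj (P := P) (P' := P') hτ S (isIso_theta adj P' S S') hQS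
  have hB := bijective_left adj (P := P) (P' := P') hτ (R.obj (P ⊗ ω))
    (isIso_theta adj P' _ B') hQB
  obtain ⟨u, hu⟩ := hS.2 (ε_ S (R.obj P'))
  dsimp only at hu
  rw [← hβ] at hu
  -- the pairing `ε_ S A` is perfect
  have hperf : ∀ T : D, Function.Bijective (fun w : T ⟶ S => R.obj P' ◁ w ≫ ε_ S (R.obj P')) := by
    intro T
    have h2 : (fun w : T ⟶ S => R.obj P' ◁ w ≫ ε_ S (R.obj P')) =
        (tensorLeftHomEquiv T S (R.obj P') (𝟙_ D)).symm ∘ (fun w : T ⟶ S => w ≫ (ρ_ S).inv) := by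
      funext w
      simp only [Function.comp_apply, tensorLeftHomEquiv, Equiv.coe_fn_symm_mk]
      rw [MonoidalCategory.whiskerLeft_comp, Category.assoc]
      congr 1
      monoidal
    rw [h2]
    exact (Equiv.bijective _).comp (((ρ_ S).symm.homToEquiv (Z := T)).bijective)
  obtain ⟨w, hw⟩ := (hperf _).2 β
  dsimp only at hw
  refine ⟨⟨w, u, hB.1 ?_, (hperf _).1 ?_⟩, hw⟩
  · dsimp only
    rw [MonoidalCategory.whiskerLeft_comp, Category.assoc, ← hβ, hu, hw,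
      MonoidalCategory.whiskerLeft_id, Category.id_comp]
  · dsimp only
    rw [MonoidalCategory.whiskerLeft_comp, Category.assoc, hw, hu,
      MonoidalCategory.whiskerLeft_id, Category.id_comp]

/-- The comparison `𝟙 ⊗ R N ⟶ R (L 𝟙 ⊗ N)`. -/
def kappa (N : C) : 𝟙_ D ⊗ R.obj N ⟶ R.obj (L.obj (𝟙_ D) ⊗ N) :=
  adj.homEquiv _ _ (δ L (𝟙_ D) (R.obj N) ≫ L.obj (𝟙_ D) ◁ ct adj N)

omit [MonoidalCategory C] [MonoidalCategory D] [L.Monoidal] in
lemma homEquiv_map_ct {Z : D} {N : C} (v : Z ⟶ R.obj N) :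
    adj.homEquiv Z N (L.map v ≫ ct adj N) = v := by
  rw [map_ct, Equiv.apply_symm_apply]

lemma kappa_eq (N : C) : kappa adj N =
    (λ_ (R.obj N)).hom ≫ R.map ((λ_ N).inv ≫ ε L ▷ N) := by
  have h : δ L (𝟙_ D) (R.obj N) ≫ L.obj (𝟙_ D) ◁ ct adj N =
      (L.map (λ_ (R.obj N)).hom ≫ ct adj N) ≫ (λ_ N).inv ≫ ε L ▷ N := by
    rw [map_leftUnitor]
    simp only [Category.assoc]
    rw [leftUnitor_inv_naturality_assoc, Iso.hom_inv_id_assoc, whisker_exchange,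
      whiskerRight_η_ε_assoc]
  rw [kappa, h, homEquiv_comp, homEquiv_map_ct]

lemma isIso_kappa (N : C) : IsIso (kappa adj N) := by
  rw [kappa_eq]
  infer_instance

lemma whiskerRight_mu (M N : C) (v : 𝟙_ D ⟶ R.obj M) :
    v ▷ R.obj N ≫ mu adj M N = kappa adj N ≫ R.map (hat adj v ▷ N) := by
  rw [mu, kappa, comp_homEquiv, ← homEquiv_comp]
  congr 1
  rw [← δ_natural_left_assoc, Category.assoc, ← map_ct, comp_whiskerRight, whisker_exchange_assoc,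
    ← whisker_exchange]

lemma whiskerRight_beta (v : 𝟙_ D ⟶ R.obj P') :
    v ▷ R.obj (P ⊗ ω) ≫ beta adj P P' ω τ =
      kappa adj (P ⊗ ω) ≫ R.map ((α_ _ _ _).inv ≫ (hat adj v ▷ P ≫ ε_ P P') ▷ ω ≫ (λ_ ω).hom) ≫ τ := by
  rw [beta, ← Category.assoc, whiskerRight_mu, Category.assoc, ← R.map_comp_assoc]
  congr 3
  rw [contr, comp_whiskerRight, associator_inv_naturality_left_assoc]
  simp only [Category.assoc]

/-- Second half of the perfectness of the pairing. -/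
theorem bijective_right (S : D) [ExactPairing S (R.obj P')] (w : R.obj (P ⊗ ω) ≅ S)
    (hw : R.obj P' ◁ w.hom ≫ ε_ S (R.obj P') = beta adj P P' ω τ) :
    Function.Bijective (fun v : 𝟙_ D ⟶ R.obj P' => v ▷ R.obj (P ⊗ ω) ≫ beta adj P P' ω τ) := by
  have h1 : (fun v : 𝟙_ D ⟶ R.obj P' => v ▷ R.obj (P ⊗ ω) ≫ beta adj P P' ω τ) =
      (fun g : 𝟙_ D ⊗ S ⟶ 𝟙_ D => 𝟙_ D ◁ w.hom ≫ g) ∘
        (tensorRightHomEquiv (𝟙_ D) S (R.obj P') (𝟙_ D)).symm ∘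
          (fun v : 𝟙_ D ⟶ R.obj P' => v ≫ (λ_ (R.obj P')).inv) := by
    funext v
    simp only [Function.comp_apply]
    rw [tensorRightHomEquiv_symm_unit, ← hw, whisker_exchange_assoc]
  rw [h1]
  exact ((((whiskerLeftIso (𝟙_ D) w).symm.homFromEquiv (Z := 𝟙_ D)).bijective).comp
    ((Equiv.bijective _).comp (((λ_ (R.obj P')).symm.homToEquiv (Z := 𝟙_ D)).bijective)))

include hτ in
/-- `- ⊗ ω : Hom(L 𝟙 ⊗ P, 𝟙) → Hom((L 𝟙 ⊗ P) ⊗ ω, 𝟙 ⊗ ω)` is bijective. -/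
theorem bijective_whiskerRight₀ (S : D) [ExactPairing S (R.obj P')] (w : R.obj (P ⊗ ω) ≅ S)
    (hw : R.obj P' ◁ w.hom ≫ ε_ S (R.obj P') = beta adj P P' ω τ)
    (hQ : Q (L.obj (𝟙_ D) ⊗ (P ⊗ ω))) :
    Function.Bijective (fun φ : L.obj (𝟙_ D) ⊗ P ⟶ 𝟙_ C => φ ▷ ω) := by
  have h0 := bijective_right adj S w hw
  let E₁ : (𝟙_ D ⟶ R.obj P') ≃ (L.obj (𝟙_ D) ⟶ P') := (adj.homEquiv _ _).symm
  have h2 : Function.Bijective (fun v : L.obj (𝟙_ D) ⟶ P' => v ▷ P ≫ ε_ P P') := by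
    have h1 : (fun v : L.obj (𝟙_ D) ⟶ P' => v ▷ P ≫ ε_ P P') =
        (tensorRightHomEquiv (L.obj (𝟙_ D)) P P' (𝟙_ C)).symm ∘
          (fun v : L.obj (𝟙_ D) ⟶ P' => v ≫ (λ_ P').inv) := by
      funext v
      exact (tensorRightHomEquiv_symm_unit _ _ _ v).symm
    rw [h1]
    exact (Equiv.bijective _).comp (((λ_ P').symm.homToEquiv (Z := L.obj (𝟙_ D))).bijective)
  have h3 : Function.Bijective (fun h : (L.obj (𝟙_ D) ⊗ P) ⊗ ω ⟶ 𝟙_ C ⊗ ω =>
      kappa adj (P ⊗ ω) ≫ R.map ((α_ _ _ _).inv ≫ h ≫ (λ_ ω).hom) ≫ τ) := by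
    have : IsIso (kappa adj (P ⊗ ω)) := isIso_kappa adj _
    have e1 : (fun h : (L.obj (𝟙_ D) ⊗ P) ⊗ ω ⟶ 𝟙_ C ⊗ ω =>
        kappa adj (P ⊗ ω) ≫ R.map ((α_ _ _ _).inv ≫ h ≫ (λ_ ω).hom) ≫ τ) =
        (fun g => kappa adj (P ⊗ ω) ≫ g) ∘ (fun g : L.obj (𝟙_ D) ⊗ (P ⊗ ω) ⟶ ω => R.map g ≫ τ) ∘
          (fun g => (α_ _ _ _).inv ≫ g) ∘ (fun g => g ≫ (λ_ ω).hom) := rfl
    rw [e1]
    exact (((asIso (kappa adj (P ⊗ ω))).symm.homFromEquiv (Z := 𝟙_ D)).bijective).comp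
      ((hτ _ hQ).comp ((((α_ _ _ _).homFromEquiv (Z := ω)).bijective).comp
        ((λ_ ω).homToEquiv).bijective))
  have h4 : (fun v : 𝟙_ D ⟶ R.obj P' => v ▷ R.obj (P ⊗ ω) ≫ beta adj P P' ω τ) =
      ((fun h : (L.obj (𝟙_ D) ⊗ P) ⊗ ω ⟶ 𝟙_ C ⊗ ω =>
      kappa adj (P ⊗ ω) ≫ R.map ((α_ _ _ _).inv ≫ h ≫ (λ_ ω).hom) ≫ τ) ∘
        (fun φ : L.obj (𝟙_ D) ⊗ P ⟶ 𝟙_ C => φ ▷ ω)) ∘
      ((fun v : L.obj (𝟙_ D) ⟶ P' => v ▷ P ≫ ε_ P P') ∘ E₁) := by
    funext v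
    exact whiskerRight_beta adj v
  rw [h4] at h0
  have h5 := (Function.Bijective.of_comp_iff _ (h2.comp E₁.bijective)).1 h0
  exact (Function.Bijective.of_comp_iff' h3 _).1 h5

include hτ in
/-- `- ⊗ ω : Hom(P, 𝟙) → Hom(P ⊗ ω, 𝟙 ⊗ ω)` is bijective. -/
theorem bijective_whiskerRight (S : D) [ExactPairing S (R.obj P')] (w : R.obj (P ⊗ ω) ≅ S)
    (hw : R.obj P' ◁ w.hom ≫ ε_ S (R.obj P') = beta adj P P' ω τ)
    (hQ : Q (L.obj (𝟙_ D) ⊗ (P ⊗ ω))) :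
    Function.Bijective (fun φ : P ⟶ 𝟙_ C => φ ▷ ω) := by
  have h0 := bijective_whiskerRight₀ adj hτ S w hw hQ
  let e : L.obj (𝟙_ D) ⊗ P ≅ P := whiskerRightIso (εIso L).symm P ≪≫ λ_ P
  have h1 : Function.Bijective (fun φ : P ⟶ 𝟙_ C => e.hom ≫ φ) :=
    (e.symm.homFromEquiv (Z := 𝟙_ C)).bijective
  have h2 : Function.Bijective (fun φ : P ⊗ ω ⟶ 𝟙_ C ⊗ ω => e.hom ▷ ω ≫ φ) :=
    ((whiskerRightIso e ω).symm.homFromEquiv (Z := 𝟙_ C ⊗ ω)).bijective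
  have h3 : (fun φ : L.obj (𝟙_ D) ⊗ P ⟶ 𝟙_ C => φ ▷ ω) ∘ (fun φ : P ⟶ 𝟙_ C => e.hom ≫ φ) =
      (fun φ : P ⊗ ω ⟶ 𝟙_ C ⊗ ω => e.hom ▷ ω ≫ φ) ∘ (fun φ : P ⟶ 𝟙_ C => φ ▷ ω) := by
    funext φ
    exact comp_whiskerRight _ _ _
  have h4 := h0.comp h1
  rw [h3] at h4
  exact (Function.Bijective.of_comp_iff' h2 _).1 h4

end Pairing

end Groth.Agent.Dual.H323.Pairing
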