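import Groth.Agent.Cohder.RelPCGraph
import Groth.Agent.Flat2H.FlatPC3
import Groth.Agent.Flat2H.PCBridge
import Groth.Agent.CalgB.PsCoh
import Groth.Agent.S1004

/-!
# The structure sheaf of a flat finitely presented affine scheme in affine space

`pc_push_structure`: `A ⟶ B` flat of finite presentation, `φ : A[x_1, …, x_n] ⟶ B` surjective over `A`; then
`φ_* O_{Spec B}` is pseudo-coherent on `A^n`.
-/

set_option autoImplicit false

universe u

open CategoryTheory Limits AlgebraicGeometry
attribute [local instance] HasDerivedCategory.standard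

namespace Groth.Agent.Dual.H323.StructPc

open Groth.Agent.Cohder.RelPCGraph Groth.Agent.Flat2H

variable {A B : Type u} [CommRing A] [CommRing B] {n : ℕ} (φ : MvPolynomial (Fin n) A →+* B)
  (hφ : Function.Surjective φ)

include hφ in
/-- `A[x] / ker φ` is pseudo-coherent. -/
theorem fpInf_quotient (hf : (ψ φ).Flat) (hp : (ψ φ).FinitePresentation) :
    FPInf (MvPolynomial (Fin n) A) (MvPolynomial (Fin n) A ⧸ RingHom.ker φ) := by
  let _ : Algebra A B := (ψ φ).toAlgebra
  have h1 : Module.Flat A B := hf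
  have h2 : Algebra.FinitePresentation A B := hp
  let φ' : MvPolynomial (Fin n) A →ₐ[A] B := ⟨φ, fun _ => rfl⟩
  have h3 : PCHom A B := PCHom.of_flat A B
  let e : (MvPolynomial (Fin n) A ⧸ RingHom.ker φ') ≃ₐ[A] B :=
    Ideal.quotientKerAlgEquivOfSurjective (f := φ') hφ
  have h4 : PCHom A (MvPolynomial (Fin n) A ⧸ RingHom.ker φ') := PCHom.equiv h3 e.symm
  have h5 := (pcHom_quotient_iff_of_pcHom (PCHom.of_flat A (MvPolynomial (Fin n) A)) _).1 h4
  exact (FPInf.quotient_iff _).2 h5

include hφ in
/-- The direct image of the structure sheaf is pseudo-coherent. -/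
theorem pc_push_structure (hf : (ψ φ).Flat) (hp : (ψ φ).FinitePresentation) (m : ℤ) :
    DCoh.IsPseudoCoherentD m (DCoh.inD _ ((Scheme.Modules.pushforward (sp φ)).obj
      (Coh.structureModule (Spec (CommRingCat.of B))))) := by
  obtain ⟨e⟩ := nonempty_pushIso φ hφ
  have hlim : PreservesFiniteLimits (tilde.functor (CommRingCat.of (MvPolynomial (Fin n) A))) :=
    Groth.Agent.PerfB.TildeExact.preservesFiniteLimits_tilde _
  have h1 := (PCBridge.isPseudoCoherentModule'_iff _).2 (fpInf_quotient φ hφ hf hp)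
  have h2 := (Groth.Agent.CalgB.PsCohGen.forall_PC_iff
    (Groth.Agent.CalgB.PsCoh.isProjClass_ffree (MvPolynomial (Fin n) A)) _).2 h1 m
  refine Groth.Agent.PerfC.PcLocal.pc_of_iso ?_
    ((Groth.Agent.S1004.result (MvPolynomial (Fin n) A) (Dual.inD (MvPolynomial (Fin n) A)
      (MvPolynomial (Fin n) A ⧸ RingHom.ker φ)) m).2 h2)
  exact tildeSingle (CommRingCat.of (MvPolynomial (Fin n) A)) _ ≪≫
    (DerivedCategory.singleFunctor _ 0).mapIso e.symm

end Groth.Agent.Dual.H323.StructPc
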