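import Groth.Agent.Cohder.RelPC
import Groth.Agent.Dual.H323.StructPc
import Groth.Agent.Dual.H349.Chart
import Groth.Agent.Dcoh.ModTens
import Groth.Agent.Dcoh.ProjShriekD

/-!
# Pseudo-coherence from the direct images of the twists by perfect objects

* `pc_push_open`: if all `Rf_*(E ⊗ K)`, `E` perfect, are pseudo-coherent, the same holds over an open of the base;
* `pc_of_push`: `f` flat separated of finite presentation, `K` with quasi-coherent cohomology such that all
  `Rf_*(E ⊗ K)`, `E` perfect, are pseudo-coherent; then `K` is pseudo-coherent.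
-/

set_option autoImplicit false

universe u

open CategoryTheory Limits MonoidalCategory AlgebraicGeometry
attribute [local instance] HasDerivedCategory.standard

open scoped Groth.Agent.Dcoh.MonCat Groth.Agent.Dcoh.ModD

namespace Groth.Agent.Dual.H323.PcChart

open Groth.Agent.Cohder Groth.Agent.PerfC.PcLocal Groth.Agent.Dcoh.LocalD

variable {X Y X' V : Scheme.{u}}

/-- Passage to an open of the base. -/
theorem pc_push_open {f : X ⟶ Y} {f' : X' ⟶ V} {j' : X' ⟶ X} {j : V ⟶ Y} [IsOpenImmersion j']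
    [IsOpenImmersion j] (hp : IsPullback j' f' f j) [CompactSpace X] [QuasiSeparatedSpace X]
    [CompactSpace X'] [DCoh.HasRpush f] [DCoh.HasRpush f'] (K : DCoh.D X)
    (hK : ∀ E : DCoh.D X, DCoh.IsPerfect E → ∀ m : ℤ,
      DCoh.IsPseudoCoherentD m ((DCoh.Rpush f).obj (E ⊗ K)))
    (E : DCoh.D X') (hE : DCoh.IsPerfect E) (m : ℤ) :
    DCoh.IsPseudoCoherentD m ((DCoh.Rpush f').obj (E ⊗ (DCoh.restrictD j').obj K)) := by
  let _ := Dcoh.ProjShriekD.restrictDMonoidal j'
  obtain ⟨R, hR, ⟨r⟩⟩ := RelPC.exists_extend j' E hE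
  have h1 := pc_restrict j (hK R hR m)
  obtain ⟨i1⟩ := Groth.Agent.Dcoh.DerSch.exists_rpushRestrictIso f f' j' j hp
  have h2 := pc_of_iso (i1.app _ ≪≫ (DCoh.Rpush f').mapIso
    (Functor.Monoidal.μIso (DCoh.restrictD j') R K).symm) h1
  exact RelPC.pc_of_retract (r.map (tensorRight ((DCoh.restrictD j').obj K) ⋙ DCoh.Rpush f')) h2

/-- The pseudo-coherence criterion. -/
theorem pc_of_push (f : X ⟶ Y) [QuasiCompact f] [IsSeparated f] [Flat f]
    [LocallyOfFinitePresentation f] [CompactSpace X] [QuasiSeparatedSpace X] [DCoh.HasRpush f]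
    (K : DCoh.D X) (hKq : DCoh.IsQCohD K)
    (hK : ∀ E : DCoh.D X, DCoh.IsPerfect E → ∀ m : ℤ,
      DCoh.IsPseudoCoherentD m ((DCoh.Rpush f).obj (E ⊗ K))) (m : ℤ) :
    DCoh.IsPseudoCoherentD m K := by
  refine pc_of_cover K fun x => ?_
  obtain ⟨R, A, jU, jV, hjU, hjV, φ, w, ⟨y, hy⟩, -⟩ := H349.Chart.exists_chart f x ⊤ trivial
  refine ⟨_, jU, hjU, y, hy, ?_⟩
  let j' : pullback f jV ⟶ X := pullback.fst f jV
  let f' : pullback f jV ⟶ Spec R := pullback.snd f jV
  let k : Spec A ⟶ pullback f jV := pullback.lift jU (Spec.map φ) w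
  have hk1 : k ≫ j' = jU := pullback.lift_fst _ _ _
  have hk2 : k ≫ f' = Spec.map φ := pullback.lift_snd _ _ _
  have hko : IsOpenImmersion k := by
    have : IsOpenImmersion (k ≫ j') := by rw [hk1]; exact hjU
    exact IsOpenImmersion.of_comp k j'
  have hcX' : CompactSpace (pullback f jV : Scheme.{u}) :=
    QuasiCompact.compactSpace_of_compactSpace f'
  have hflat : φ.hom.Flat := H349.Chart.flat_of_chart w
  have hfp : φ.hom.FinitePresentation := by
    have h1 : LocallyOfFinitePresentation (Spec.map φ ≫ jV) := by rw [← w]; infer_instance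
    have h2 : LocallyOfFinitePresentation (Spec.map φ) :=
      MorphismProperty.of_postcomp (W := @LocallyOfFinitePresentation) (W' := @IsOpenImmersion) _ jV
        inferInstance h1
    exact (HasRingHomProperty.Spec_iff (P := @LocallyOfFinitePresentation)).1 h2
  obtain ⟨n, φ₀, hφ₀⟩ := H349.Chart.exists_presentation φ
    (H349.Chart.finiteType_of_chart φ w)
  let _ : Algebra R A := φ.hom.toAlgebra
  let ρ : MvPolynomial (Fin n) R →+* A := φ₀.toRingHom
  have hρ : Function.Surjective ρ := hφ₀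
  have hρC : RelPCGraph.ψ ρ = φ.hom := RingHom.ext fun r => φ₀.commutes r
  have hk : k ≫ f' = Spec.map (CommRingCat.ofHom (RelPCGraph.ψ ρ)) := by
    rw [hk2, hρC]; rfl
  have hr1 : DCoh.HasRpush f' := Dcoh.DerSch.hasRpush _
  have hr2 : DCoh.HasRpush (Spec.map (CommRingCat.ofHom ρ)) := Dcoh.DerSch.hasRpush _
  obtain ⟨K', ⟨e⟩⟩ : ∃ K' : CochainComplex (pullback f jV : Scheme.{u}).Modules ℤ,
      Nonempty (DerivedCategory.Q.obj K' ≅ (DCoh.restrictD j').obj K) :=
    ⟨_, ⟨DerivedCategory.Q.objObjPreimageIso _⟩⟩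
  have ht := PerfC.DTens.hasLTensorCx K'
  have hE : ∀ E : DCoh.D (pullback f jV : Scheme.{u}), DCoh.IsPerfect E → ∀ m : ℤ,
      DCoh.IsPseudoCoherentD m ((DCoh.Rpush f').obj ((DCoh.LTensorCx K').obj E)) := fun E hE m =>
    pc_of_iso ((DCoh.Rpush f').mapIso (whiskerLeftIso E e.symm ≪≫
      ((Dcoh.ModTens.LTensorCxIso K').app E).symm))
      (pc_push_open (IsPullback.of_hasPullback f jV) K hK E hE m)
  have h1 := RelPC.pc_main f' ρ k hk K' (PerfA.QCohD.isQCohD_of_iso e.symm
    (PerfA.QCohD.isQCohD_restrictD j' hKq)) hE hρ m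
  have hcl : IsClosedImmersion (Spec.map (CommRingCat.ofHom ρ)) :=
    IsClosedImmersion.spec_of_surjective _ hρ
  have h2 := pc_of_iso ((PerfC.LpullFlat.rpushIso _).app _) h1
  have h3 := (PerfC.ClosedImmPc.iff_pushD _ (StructPc.pc_push_structure ρ hρ
    (by rw [hρC]; exact hflat) (by rw [hρC]; exact hfp)) _ m).2 h2
  exact pc_of_iso ((DCoh.restrictD k).mapIso e ≪≫
    (restrictCompEq (f := k) (g := j') hk1).app K) h3

end Groth.Agent.Dual.H323.PcChart
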