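import Groth.Agent.Dual.H323.Pairing
import Groth.Agent.Dcoh.PerfDual
import Groth.Agent.Dcoh.MonSymm293
import Groth.Agent.Dcoh.MonLpull182
import Groth.Agent.Dcoh.MonPull292
import Groth.Agent.Ega1.ADualUniv
import Groth.Agent.PerfA.PCohQCoh
import Groth.Agent.S0998
import Groth.Agent.S1118
import Groth.Agent.PerfB.StructFlat

/-!
# The pushforward of `E ⊗ ω`, `ω` universal for `(f, O)`

`f : X ⟶ Y` quasi-compact and quasi-separated, `Rf_*` preserves perfect objects, `(ω, τ)` universal for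
`(f, O_Y)` (`ADualUniv.IsUniv`).
* `isPerfect_push`: `Rf_* (E ⊗ ω)` is perfect for `E` perfect;
* `bijective_whiskerRight`: `- ⊗ ω : Hom(P, O) → Hom(P ⊗ ω, O ⊗ ω)` is bijective for `P` perfect.
-/

set_option autoImplicit false

universe u

open CategoryTheory Limits MonoidalCategory AlgebraicGeometry
attribute [local instance] HasDerivedCategory.standard

open scoped Groth.Agent.Dcoh.MonCat Groth.Agent.Dcoh.ModD

namespace Groth.Agent.Dual.H323.PerfPush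

open Groth.Agent.Dcoh Groth.Agent.Dcoh.ModD Groth.Agent.PerfC.DTens Groth.Agent.Ega1.ADualUniv

/-- Objects of a full subcategory representing the same functor are isomorphic. -/
theorem nonempty_iso_of_yoneda {D : Type*} [Category* D] (Q : D → Prop) {A B : D} (hA : Q A) (hB : Q B)
    (e : ∀ T : D, Q T → ((T ⟶ A) → (T ⟶ B))) (he : ∀ T hT, Function.Bijective (e T hT))
    (nat : ∀ (T T' : D) (hT : Q T) (hT' : Q T') (u : T' ⟶ T) (g : T ⟶ A),
      e T' hT' (u ≫ g) = u ≫ e T hT g) : Nonempty (A ≅ B) := by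
  obtain ⟨s, hs⟩ := (he B hB).2 (𝟙 B)
  refine ⟨⟨e A hA (𝟙 A), s, (he A hA).1 ?_, ?_⟩⟩
  · rw [nat B A hB hA, hs, Category.comp_id]
  · rw [← nat A B hA hB, Category.comp_id, hs]

variable {X Y : Scheme.{u}}

/-- A perfect object has a perfect left dual. -/
theorem exists_leftDual (K : DCoh.D X) (hK : DCoh.IsPerfect K) :
    ∃ K' : DCoh.D X, DCoh.IsPerfect K' ∧ Nonempty (ExactPairing K' K) := by
  obtain ⟨K₁, h₁, ⟨e₁⟩⟩ := PerfDual.exists_exactPairing K hK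
  obtain ⟨K₂, h₂, ⟨e₂⟩⟩ := PerfDual.exists_exactPairing K₁ h₁
  exact ⟨K₁, h₁, Pairing.nonempty_swap MonSymm293.weakSymm K K₁ K₂⟩

/-- The tensor product of objects with quasi-coherent cohomology. -/
lemma isQCohD_tensor {K L : DCoh.D X} (hK : DCoh.IsQCohD K) (hL : DCoh.IsQCohD L) :
    DCoh.IsQCohD (K ⊗ L) := by
  obtain ⟨e⟩ := PerfDual.nonempty_iso K L
  exact PerfC.ProjAbs291.isQCohD_of_iso e (PerfC.ProjAbs291.isQCohD_LTX hK hL)

variable (X) in
/-- The unit of `D(O_X)` is perfect. -/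
lemma isPerfect_unit : DCoh.IsPerfect (𝟙_ (DCoh.D X)) :=
  LocalD.isPerfect_of_iso (DualX.unitIso X)
    (PerfA.PerfLocal.isPerfect_inD_of_isFinLocFree PerfB.StructFlat.isFinLocFree_structure)

variable (X) in
/-- The unit of `D(O_X)` is quasi-coherent. -/
lemma isQCohD_unit : DCoh.IsQCohD (𝟙_ (DCoh.D X)) :=
  PerfA.PCohQCoh.isQCohD_of_isPerfect (isPerfect_unit X)

/-- Projection formula, naturally in `T`. -/
theorem exists_proj (f : X ⟶ Y) [QuasiCompact f] [QuasiSeparated f] [DCoh.HasRpush f]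
    [DCoh.HasLpull f] (M : DCoh.D X) (hM : DCoh.IsQCohD M) :
    ∃ t : tensorLeft ((DCoh.Rpush f).obj M) ⟶ DCoh.Lpull f ⋙ tensorLeft M ⋙ DCoh.Rpush f,
      ∀ T : DCoh.D Y, DCoh.IsQCohD T → IsIso (t.app T) := by
  obtain ⟨e₁⟩ := PerfDual.nonempty_objIso ((DCoh.Rpush f).obj M)
  obtain ⟨e₂⟩ := PerfDual.nonempty_objIso M
  refine ⟨e₁.inv ≫ PerfC.LpullTens.theta f M ≫
    Functor.whiskerLeft _ (Functor.whiskerRight e₂.hom _), fun T hT => ?_⟩
  have := S1118.isIso_theta_app f M hM T hT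
  rw [NatTrans.comp_app, NatTrans.comp_app]
  dsimp only [Functor.whiskerLeft_app, Functor.whiskerRight_app]
  infer_instance

section

universe v₁ u₁

variable {C : Type u₁} [Category.{v₁} C] [MonoidalCategory C]

lemma tensorLeftHomEquiv_whiskerLeft {T T' Y Y' Z : C} [ExactPairing Y Y'] (u : T' ⟶ T)
    (g : Y' ⊗ T ⟶ Z) :
    tensorLeftHomEquiv T' Y Y' Z (Y' ◁ u ≫ g) = u ≫ tensorLeftHomEquiv T Y Y' Z g := by
  rw [← Equiv.eq_symm_apply, tensorLeftHomEquiv_symm_naturality, Equiv.symm_apply_apply]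

end

section main

variable (f : X ⟶ Y) [QuasiCompact f] [QuasiSeparated f] [DCoh.HasRpush f]
  {ω : DCoh.D X} {τ : (DCoh.Rpush f).obj ω ⟶ 𝟙_ (DCoh.D Y)} (h : IsUniv f (𝟙_ (DCoh.D Y)) ω τ)

include h in
/-- `Rf_* (E ⊗ ω)` is the dual of `Rf_* E'` if `E'` is the dual of `E`. -/
theorem nonempty_push_iso (E E' : DCoh.D X) (hE : DCoh.IsPerfect E) (hE' : DCoh.IsPerfect E')
    [ExactPairing E E'] (B : DCoh.D Y) (hB : DCoh.IsPerfect B)
    [ExactPairing B ((DCoh.Rpush f).obj E')] : Nonempty ((DCoh.Rpush f).obj (E ⊗ ω) ≅ B) := by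
  have hL := DerPull.hasLpull f
  let adj := DerPull.lpullAdj f
  obtain ⟨t, ht⟩ := exists_proj f E' (PerfA.PCohQCoh.isQCohD_of_isPerfect hE')
  refine nonempty_iso_of_yoneda DCoh.IsQCohD
    (S0998.result f _ (isQCohD_tensor (PerfA.PCohQCoh.isQCohD_of_isPerfect hE) h.qcoh))
    (PerfA.PCohQCoh.isQCohD_of_isPerfect hB)
    (fun T hT u => tensorLeftHomEquiv T B ((DCoh.Rpush f).obj E') (𝟙_ _)
      (t.app T ≫ (DCoh.Rpush f).map ((tensorLeftHomEquiv ((DCoh.Lpull f).obj T) E E' ω).symm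
        ((adj.homEquiv _ _).symm u)) ≫ τ) ≫ (ρ_ B).hom) (fun T hT => ?_) ?_
  · have := ht T hT
    have h1 : Function.Bijective (fun g : T ⟶ B ⊗ 𝟙_ _ => g ≫ (ρ_ B).hom) :=
      ((ρ_ B).homToEquiv (Z := T)).bijective
    have h2 := (tensorLeftHomEquiv T B ((DCoh.Rpush f).obj E') (𝟙_ _)).bijective
    have h3 : Function.Bijective (fun g : (DCoh.Rpush f).obj (E' ⊗ (DCoh.Lpull f).obj T) ⟶ 𝟙_ _ =>
        t.app T ≫ g) := (((asIso (t.app T))).symm.homFromEquiv (Z := 𝟙_ _)).bijective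
    have h4 := h.bij (E' ⊗ (DCoh.Lpull f).obj T)
      (isQCohD_tensor (PerfA.PCohQCoh.isQCohD_of_isPerfect hE') (S1054.result f _ hT))
    have h5 := (tensorLeftHomEquiv ((DCoh.Lpull f).obj T) E E' ω).symm.bijective
    have h6 := (adj.homEquiv T (E ⊗ ω)).symm.bijective
    exact h1.comp (h2.comp (h3.comp (h4.comp (h5.comp h6))))
  · intro T T' hT hT' u g
    have h1 : (DCoh.Rpush f).obj E' ◁ u ≫ t.app T =
        t.app T' ≫ (DCoh.Rpush f).map (E' ◁ (DCoh.Lpull f).map u) := t.naturality u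
    rw [Adjunction.homEquiv_naturality_left_symm, tensorLeftHomEquiv_symm_naturality,
      Functor.map_comp, Category.assoc, ← reassoc_of% h1, tensorLeftHomEquiv_whiskerLeft,
      Category.assoc]

variable (hf : ∀ E : DCoh.D X, DCoh.IsPerfect E → DCoh.IsPerfect ((DCoh.Rpush f).obj E))

include h hf in
/-- `Rf_* (E ⊗ ω)` is perfect for `E` perfect. -/
theorem isPerfect_push (E : DCoh.D X) (hE : DCoh.IsPerfect E) :
    DCoh.IsPerfect ((DCoh.Rpush f).obj (E ⊗ ω)) := by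
  obtain ⟨E', hE', ⟨_⟩⟩ := PerfDual.exists_exactPairing E hE
  obtain ⟨B, hB, ⟨_⟩⟩ := exists_leftDual _ (hf E' hE')
  obtain ⟨e⟩ := nonempty_push_iso f h E E' hE hE' B hB
  exact LocalD.isPerfect_of_iso e.symm hB

include h hf in
/-- `- ⊗ ω : Hom(P, O) → Hom(P ⊗ ω, O ⊗ ω)` is bijective for `P` perfect. -/
theorem bijective_whiskerRight (P : DCoh.D X) (hP : DCoh.IsPerfect P) :
    Function.Bijective (fun φ : P ⟶ 𝟙_ (DCoh.D X) => φ ▷ ω) := by
  have hL := DerPull.hasLpull f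
  let _ := MonPull.monPull f
  let _ := MonLpull182.lpullMonoidal f
  let adj := DerPull.lpullAdj f
  have hq : ∀ {Z : Scheme.{u}} (E : DCoh.D Z), DCoh.IsPerfect E → DCoh.IsQCohD E := fun E hE =>
    PerfA.PCohQCoh.isQCohD_of_isPerfect hE
  obtain ⟨P', hP', ⟨_⟩⟩ := PerfDual.exists_exactPairing P hP
  obtain ⟨S, hS, ⟨_⟩⟩ := exists_leftDual _ (hf P' hP')
  obtain ⟨S', hS', ⟨_⟩⟩ := exists_leftDual S hS
  have hB := isPerfect_push f h hf P hP
  obtain ⟨B', hB', ⟨_⟩⟩ := exists_leftDual _ hB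
  have hQS : DCoh.IsQCohD (P' ⊗ (DCoh.Lpull f).obj S) :=
    isQCohD_tensor (hq _ hP') (S1054.result f _ (hq _ hS))
  have hQB : DCoh.IsQCohD (P' ⊗ (DCoh.Lpull f).obj ((DCoh.Rpush f).obj (P ⊗ ω))) :=
    isQCohD_tensor (hq _ hP') (S1054.result f _ (hq _ hB))
  obtain ⟨w, hw⟩ := Pairing.exists_iso_dual adj (Q := DCoh.IsQCohD) h.bij S S' B' hQS hQB
  refine Pairing.bijective_whiskerRight adj (Q := DCoh.IsQCohD) h.bij S w hw ?_
  exact isQCohD_tensor (S1054.result f _ (isQCohD_unit Y)) (isQCohD_tensor (hq _ hP) h.qcoh)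

end main

end Groth.Agent.Dual.H323.PerfPush
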