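import Groth.Agent.Dcoh.DualX
import Groth.Agent.LoccohB.AdjIso
import Groth.Agent.PerfA.QCohD
import Groth.Agent.PerfA.PerfLocal
import Groth.Prelude.Def_DCoh4

/-!
# A criterion for `O ⟶ RHom(E, E)` to be an isomorphism

`isIso_homEquiv`: if `- ⊗ E : Hom(P, O) ⟶ Hom(P ⊗ E, O ⊗ E)` is bijective for all perfect `P`, and
`RHom(E, E)` has quasi-coherent cohomology sheaves (`X` having a perfect generator), then the map
`O ⟶ RHom(E, E)` adjoint to `O ⊗ E ≅ E` is an isomorphism.
-/

set_option autoImplicit false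

universe u

open CategoryTheory Limits MonoidalCategory AlgebraicGeometry Pretriangulated
attribute [local instance] HasDerivedCategory.standard

open scoped Groth.Agent.Dcoh.MonCat Groth.Agent.Dcoh.ModD

namespace Groth.Agent.Dual.H323.RHomSelf

open Groth.Agent.Dcoh Groth.Agent.Dcoh.ModD

variable {X : Scheme.{u}}

/-- `- ⊗^L E` on `Hom(P, inD O)` is bijective if `- ⊗ Q E` is on `Hom(P, 𝟙)`. -/
lemma bijective_LTensorCx_map (E : CochainComplex X.Modules ℤ) [DCoh.HasLTensorCx E] (P : DCoh.D X)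
    (h : Function.Bijective (fun φ : P ⟶ 𝟙_ (DCoh.D X) => φ ▷ (DCoh.toD X E))) :
    Function.Bijective (fun u : P ⟶ DCoh.inD X (Coh.structureModule X) => (DCoh.LTensorCx E).map u) := by
  have h1 : Function.Bijective (fun u : P ⟶ DCoh.inD X (Coh.structureModule X) =>
      u ≫ (DualX.unitIso X).hom) := ((DualX.unitIso X).homToEquiv (Z := P)).bijective
  have h3 : Function.Bijective (fun v : P ⊗ DCoh.toD X E ⟶ 𝟙_ (DCoh.D X) ⊗ DCoh.toD X E =>
      v ≫ (DualX.unitIso X).inv ▷ DCoh.toD X E) :=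
    ((whiskerRightIso (DualX.unitIso X) (DCoh.toD X E)).symm.homToEquiv (Z := _)).bijective
  have h4 : Function.Bijective (fun v : P ⊗ DCoh.toD X E ⟶
      DCoh.inD X (Coh.structureModule X) ⊗ DCoh.toD X E =>
      (ModTens.LTensorCxIso E).hom.app P ≫ v) :=
    (((ModTens.LTensorCxIso E).app P).symm.homFromEquiv (Z := _)).bijective
  have h5 : Function.Bijective (fun v : (DCoh.LTensorCx E).obj P ⟶
      DCoh.inD X (Coh.structureModule X) ⊗ DCoh.toD X E =>
      v ≫ (ModTens.LTensorCxIso E).inv.app _) :=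
    (((ModTens.LTensorCxIso E).app (DCoh.inD X (Coh.structureModule X))).symm.homToEquiv
      (Z := _)).bijective
  convert h5.comp (h4.comp (h3.comp (h.comp h1))) using 1
  funext u
  have h6 := (ModTens.LTensorCxIso E).hom.naturality u
  have h7 : (u ≫ (DualX.unitIso X).hom) ≫ (DualX.unitIso X).inv = u :=
    ((DualX.unitIso X).homToEquiv (Z := P)).symm_apply_apply u
  dsimp only [Function.comp_apply]
  rw [← comp_whiskerRight, h7]
  change _ = ((ModTens.LTensorCxIso E).hom.app P ≫ (tensorRight (DerivedCategory.Q.obj E)).map u) ≫ _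
  rw [← h6, Category.assoc, Iso.hom_inv_id_app, Category.comp_id]

/-- The criterion. -/
theorem isIso_homEquiv (E : CochainComplex X.Modules ℤ) [DCoh.HasLTensorCx E] [DCoh.HasRSheafHom E]
    {G : DCoh.D X} (hG : DCoh.IsPerfect G)
    (hgen : ∀ E : DCoh.D X, DCoh.IsQCohD E → (∀ (n : ℤ) (φ : G⟦n⟧ ⟶ E), φ = 0) → IsZero E)
    (hO : DCoh.IsQCohD (DCoh.inD X (Coh.structureModule X)))
    (hq : DCoh.IsQCohD ((DCoh.RSheafHom E).obj (DCoh.toD X E)))
    (h : ∀ P : DCoh.D X, DCoh.IsPerfect P →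
      Function.Bijective (fun φ : P ⟶ 𝟙_ (DCoh.D X) => φ ▷ (DCoh.toD X E)))
    (υ : (DCoh.LTensorCx E).obj (DCoh.inD X (Coh.structureModule X)) ≅ DCoh.toD X E) :
    IsIso (((DCoh.RSheafHomAdj E).homEquiv (DCoh.inD X (Coh.structureModule X)) (DCoh.toD X E))
      υ.hom) := by
  refine LoccohB.AdjIso.isIso_of_generators (fun _ : Unit => G) _ (fun Z g h hT hz => ?_)
    (fun _ m => ?_)
  · exact hgen Z (PerfA.QCohD.isQCohD_ext₃ _ hT hO hq) (hz ())
  · have h1 := bijective_LTensorCx_map E (G⟦m⟧) (h _ (PerfA.PerfLocal.isPerfect_shift hG m))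
    have h2 : Function.Bijective (fun v : (DCoh.LTensorCx E).obj (G⟦m⟧) ⟶
        (DCoh.LTensorCx E).obj (DCoh.inD X (Coh.structureModule X)) => v ≫ υ.hom) :=
      (υ.homToEquiv (Z := _)).bijective
    have h3 := ((DCoh.RSheafHomAdj E).homEquiv (G⟦m⟧) (DCoh.toD X E)).bijective
    convert h3.comp (h2.comp h1) using 1
    funext u
    exact ((DCoh.RSheafHomAdj E).homEquiv_naturality_left u υ.hom).symm

end Groth.Agent.Dual.H323.RHomSelf
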