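import Groth.Agent.Dual.H323.RelTor
import Groth.Agent.Dual.H323.PcChart
import Groth.Agent.Dual.H323.RHomSelf
import Groth.Agent.S1115

/-!
# The relative dualizing complex of a flat proper morphism of finite presentation

`f : X ⟶ Y` flat, proper, of finite presentation, `Y` quasi-compact and quasi-separated, `ω` representing
`N ↦ Hom(Rf_* N, O_Y)` on `D_QCoh(O_X)`.
* `isPerfect_push`: `Rf_*(E ⊗ ω)` is perfect for `E` perfect;
* `isPseudoCoherentD`: `ω` is pseudo-coherent;
* `locHasFiniteRelTorDim`: `ω` has locally finite tor dimension over `Y`;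
* `exists_isGE`: `ω` is bounded below;
* `isIso_homEquiv`: `O ⟶ RHom(ω, ω)` is an isomorphism.
-/

set_option autoImplicit false

universe u

open CategoryTheory Limits MonoidalCategory AlgebraicGeometry
attribute [local instance] HasDerivedCategory.standard

open scoped Groth.Agent.Dcoh.MonCat Groth.Agent.Dcoh.ModD

namespace Groth.Agent.Dual.H323.RelPerfect

open Groth.Agent.Dcoh Groth.Agent.Dcoh.ModD Groth.Agent.Ega1.ADualUniv

variable {X Y : Scheme.{u}} (f : X ⟶ Y) [CompactSpace Y] [QuasiSeparatedSpace Y] [IsProper f]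
  [Flat f] [LocallyOfFinitePresentation f] [DCoh.HasRpush f] {ω : DCoh.D X} {K : DCoh.D Y}

omit [CompactSpace Y] [QuasiSeparatedSpace Y] in
/-- `Rf_*` preserves perfect objects. -/
theorem isPerfect_Rpush (E : DCoh.D X) (hE : DCoh.IsPerfect E) :
    DCoh.IsPerfect ((DCoh.Rpush f).obj E) :=
  S1002.result f E hE

variable (hK : K ≅ DCoh.inD Y (Coh.structureModule Y)) (h : Univ f K ω)

include hK h in
omit [CompactSpace Y] [QuasiSeparatedSpace Y] [IsProper f] [Flat f]
  [LocallyOfFinitePresentation f] in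
/-- Universality with respect to the unit object. -/
theorem univ_unit : Univ f (𝟙_ (DCoh.D Y)) ω :=
  h.of_iso_right (hK ≪≫ DualX.unitIso Y)

include hK h

omit [CompactSpace Y] [QuasiSeparatedSpace Y] in
/-- `Rf_*(E ⊗ ω)` is perfect for `E` perfect. -/
theorem isPerfect_push (E : DCoh.D X) (hE : DCoh.IsPerfect E) :
    DCoh.IsPerfect ((DCoh.Rpush f).obj (E ⊗ ω)) := by
  obtain ⟨τ, hτ⟩ := univ_unit f hK h
  exact PerfPush.isPerfect_push f hτ (isPerfect_Rpush f) E hE

/-- `ω` is pseudo-coherent. -/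
theorem isPseudoCoherentD (m : ℤ) : DCoh.IsPseudoCoherentD m ω := by
  have h1 : CompactSpace X := QuasiCompact.compactSpace_of_compactSpace f
  have h2 : QuasiSeparatedSpace X := quasiSeparatedSpace_of_quasiSeparated f
  exact PcChart.pc_of_push f ω h.qcoh (fun E hE m =>
    ((S0914.result _).1 (isPerfect_push f hK h E hE)).1 m) m

/-- `ω` has locally finite tor dimension over `Y`. -/
theorem locHasFiniteRelTorDim : DCoh.LocHasFiniteRelTorDim f ω :=
  RelTor.locHasFiniteRelTorDim f ω h.qcoh (isPerfect_push f hK h) (isPseudoCoherentD f hK h)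

/-- `ω` is bounded below. -/
theorem exists_isGE : ∃ a : ℤ, ω.IsGE a := by
  have h1 : CompactSpace X := QuasiCompact.compactSpace_of_compactSpace f
  have h2 : QuasiSeparatedSpace X := quasiSeparatedSpace_of_quasiSeparated f
  exact RelTor.exists_isGE f ω h.qcoh (isPerfect_push f hK h)

/-- `O ⟶ RHom(ω, ω)` is an isomorphism. -/
theorem isIso_homEquiv (E : CochainComplex X.Modules ℤ) (e : DCoh.toD X E ≅ ω)
    [DCoh.HasLTensorCx E] [DCoh.HasRSheafHom E]
    (υ : (DCoh.LTensorCx E).obj (DCoh.inD X (Coh.structureModule X)) ≅ DCoh.toD X E) :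
    IsIso (((DCoh.RSheafHomAdj E).homEquiv (DCoh.inD X (Coh.structureModule X)) (DCoh.toD X E))
      υ.hom) := by
  have h1 : CompactSpace X := QuasiCompact.compactSpace_of_compactSpace f
  have h2 : QuasiSeparatedSpace X := quasiSeparatedSpace_of_quasiSeparated f
  have hq : DCoh.IsQCohD (DCoh.toD X E) := PerfA.QCohD.isQCohD_of_iso e.symm h.qcoh
  have h' : Univ f K (DCoh.toD X E) := h.of_iso_left e.symm hq
  obtain ⟨G, hG, hgen⟩ := S1008.result X
  obtain ⟨a, ha⟩ := exists_isGE f hK h'
  obtain ⟨τ, hτ⟩ := univ_unit f hK h'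
  exact RHomSelf.isIso_homEquiv E hG (fun E hE => (hgen E hE).2)
    (PerfA.QCohD.isQCohD_of_iso (DualX.unitIso X).symm (PerfPush.isQCohD_unit X))
    (S1115.result X E (isPseudoCoherentD f hK h') _ hq a)
    (PerfPush.bijective_whiskerRight f hτ (isPerfect_Rpush f)) υ

end Groth.Agent.Dual.H323.RelPerfect
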