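import Groth.Agent.Dual.H323.FibreHom
import Groth.Agent.Dual.H323.FibreGen
import Groth.Agent.PerfA.RelPerfPush
import Groth.Agent.S0921
import Groth.Agent.S1008
import Groth.Agent.S1020

/-!
# Finite relative tor dimension from the direct images of the twists by perfect objects

`f : X ⟶ Y` flat of finite presentation, `Y` quasi-compact and quasi-separated, `K` with quasi-coherent
cohomology such that `Rf_*(E ⊗ K)` is perfect for all perfect `E`.
* `exists_isGE`: `K` is bounded below;
* `exists_isGE_fiber`: the derived restriction of `K` to a fibre is bounded below;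
* `locHasFiniteRelTorDim`: if `K` is pseudo-coherent, it has locally finite tor dimension over `Y`.
-/

set_option autoImplicit false

universe u

open CategoryTheory Limits MonoidalCategory AlgebraicGeometry
attribute [local instance] HasDerivedCategory.standard

open scoped Groth.Agent.Dcoh.MonCat Groth.Agent.Dcoh.ModD

namespace Groth.Agent.Dual.H323.RelTor

open Groth.Agent.Dcoh Groth.Agent.Dcoh.ModD

variable {X Y : Scheme.{u}} (f : X ⟶ Y) [DCoh.HasRpush f] (K : DCoh.D X) (hKq : DCoh.IsQCohD K)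
  (hK : ∀ E : DCoh.D X, DCoh.IsPerfect E → DCoh.IsPerfect ((DCoh.Rpush f).obj (E ⊗ K)))

include hKq hK in
/-- `K` is bounded below. -/
theorem exists_isGE [CompactSpace X] [QuasiSeparatedSpace X] [CompactSpace Y] :
    ∃ a : ℤ, K.IsGE a := by
  obtain ⟨G, hG, hgen⟩ := S1008.result X
  obtain ⟨G', hG', ⟨_⟩⟩ := PerfPush.exists_leftDual G hG
  obtain ⟨a, b, ha, -⟩ := PerfA.Restrict.exists_bounds_of_isPerfect _ (hK G' hG')
  exact (S1020.result X G hG (fun E hE => (hgen E hE).2) K hKq).2
    ⟨a - 1, fun i hi φ => FibreHom.hom_zero f K G G' a i (by omega) φ⟩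

include hKq hK in
/-- The derived restriction of `K` to a fibre is bounded below. -/
theorem exists_isGE_fiber [Flat f] [QuasiCompact f] [QuasiSeparated f] [CompactSpace X]
    [QuasiSeparatedSpace X] [QuasiSeparatedSpace Y] (s : Y) [DCoh.HasLpull (f.fiberι s)] :
    ∃ a : ℤ, ((DCoh.Lpull (f.fiberι s)).obj K).IsGE a := by
  let _ := MonPull.monPull (f.fiberι s)
  let _ := MonLpull182.lpullMonoidal (f.fiberι s)
  have hL1 : DCoh.HasLpull (Y.fromSpecResidueField s) := DerPull.hasLpull _
  have hL2 : DCoh.HasLpull (pullback.fst f (Y.fromSpecResidueField s)) :=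
    inferInstanceAs (DCoh.HasLpull (f.fiberι s))
  have hR1 : DCoh.HasRpush (f.fiberToSpecResidueField s) := DerSch.hasRpush _
  have hR2 : DCoh.HasRpush (pullback.snd f (Y.fromSpecResidueField s)) :=
    inferInstanceAs (DCoh.HasRpush (f.fiberToSpecResidueField s))
  have hq1 : QuasiSeparated (f.fiberToSpecResidueField s) :=
    MorphismProperty.pullback_snd _ _ (inferInstance : QuasiSeparated f)
  have hq2 : QuasiSeparatedSpace (f.fiber s) :=
    quasiSeparatedSpace_of_quasiSeparated (f.fiberToSpecResidueField s)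
  obtain ⟨G, hG, hgen⟩ := S1008.result X
  obtain ⟨G', hG', ⟨_⟩⟩ := PerfPush.exists_leftDual G hG
  let _ : ExactPairing ((DCoh.Lpull (f.fiberι s)).obj G') ((DCoh.Lpull (f.fiberι s)).obj G) :=
    DualMap.mapPairing (DCoh.Lpull (f.fiberι s)) G' G
  obtain ⟨e⟩ := PerfA.RelPerfPush.nonempty_baseChange f (Y.fromSpecResidueField s) (G' ⊗ K)
    (PerfPush.isQCohD_tensor (PerfA.PCohQCoh.isQCohD_of_isPerfect hG') hKq)
  have hp := S0921.result (Y.fromSpecResidueField s) _ (hK G' hG')
  obtain ⟨a, b, ha, -⟩ := PerfA.Restrict.exists_bounds_of_isPerfect _ hp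
  let e' : (DCoh.Lpull (Y.fromSpecResidueField s)).obj ((DCoh.Rpush f).obj (G' ⊗ K)) ≅
      (DCoh.Rpush (f.fiberToSpecResidueField s)).obj ((DCoh.Lpull (f.fiberι s)).obj G' ⊗
        (DCoh.Lpull (f.fiberι s)).obj K) :=
    e ≪≫ (DCoh.Rpush (f.fiberToSpecResidueField s)).mapIso
      (Functor.Monoidal.μIso (DCoh.Lpull (f.fiberι s)) G' K).symm
  have hge := PerfC.RpushTrunc.isGE_of_iso e' a
  exact (S1020.result (f.fiber s) ((DCoh.Lpull (f.fiberι s)).obj G) (S0921.result _ _ hG)
    (FibreGen.generator_fiberι f s G (fun E hE => (hgen E hE).2)) _ (S1054.result _ _ hKq)).2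
    ⟨a - 1, fun i hi φ => FibreHom.hom_zero (f.fiberToSpecResidueField s) _
      ((DCoh.Lpull (f.fiberι s)).obj G) ((DCoh.Lpull (f.fiberι s)).obj G') a i (by omega) φ⟩

include hKq hK in
/-- `K` has locally finite tor dimension over `Y`. -/
theorem locHasFiniteRelTorDim [Flat f] [LocallyOfFinitePresentation f] [QuasiCompact f]
    [QuasiSeparated f] [CompactSpace Y] [QuasiSeparatedSpace Y]
    (hpc : ∀ m : ℤ, DCoh.IsPseudoCoherentD m K) : DCoh.LocHasFiniteRelTorDim f K := by
  have hL : ∀ s : Y, DCoh.HasLpull (f.fiberι s) := fun s => DerPull.hasLpull _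
  have h1 : CompactSpace X := QuasiCompact.compactSpace_of_compactSpace f
  have h2 : QuasiSeparatedSpace X := quasiSeparatedSpace_of_quasiSeparated f
  refine (S1101.result f K hpc).2 ⟨?_, fun s => ?_⟩
  · obtain ⟨a, ha⟩ := exists_isGE f K hKq hK
    exact PerfA.LocBdd.LB.of_isGE a ha
  · obtain ⟨a, ha⟩ := exists_isGE_fiber f K hKq hK s
    exact PerfA.LocBdd.LB.of_isGE a ha

end Groth.Agent.Dual.H323.RelTor
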